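import Mathlib

/-!
# Spectra of direct products; moving a finite group to `Type`
-/

set_option autoImplicit false

namespace Cfsg.Agent.H413.SpecProd

universe u v

/-- a number is an element order -/
def IsOrd (G : Type*) [Group G] (n : ℕ) : Prop := ∃ g : G, orderOf g = n

theorem mem_range {G : Type*} [Group G] {n : ℕ} : n ∈ Set.range (orderOf : G → ℕ) ↔ IsOrd G n := Iff.rfl

theorem IsOrd.dvd {G : Type*} [Group G] {n d : ℕ} (h : IsOrd G n) (hn : n ≠ 0) (hd : d ∣ n) : IsOrd G d := by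
  obtain ⟨g, rfl⟩ := h
  obtain ⟨k, hk⟩ := hd
  have hk0 : k ≠ 0 := by rintro rfl; rw [mul_zero] at hk; exact hn hk
  refine ⟨g ^ k, ?_⟩
  rw [orderOf_pow_of_dvd hk0 ⟨d, by rw [hk]; ring⟩, hk, Nat.mul_div_cancel _ (Nat.pos_of_ne_zero hk0)]

theorem ord_prod {G H : Type*} [Group G] [Group H] {n : ℕ} :
    IsOrd (G × H) n ↔ ∃ a b, IsOrd G a ∧ IsOrd H b ∧ Nat.lcm a b = n := by
  constructor
  · rintro ⟨⟨g, h⟩, rfl⟩
    exact ⟨_, _, ⟨g, rfl⟩, ⟨h, rfl⟩, (Prod.orderOf (g, h)).symm⟩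
  · rintro ⟨a, b, ⟨g, rfl⟩, ⟨h, rfl⟩, rfl⟩
    exact ⟨(g, h), Prod.orderOf (g, h)⟩

theorem ord_congr {G H : Type*} [Group G] [Group H] (e : G ≃* H) {n : ℕ} : IsOrd G n ↔ IsOrd H n := by
  constructor
  · rintro ⟨g, rfl⟩
    exact ⟨e g, MulEquiv.orderOf_eq e g⟩
  · rintro ⟨g, rfl⟩
    exact ⟨e.symm g, MulEquiv.orderOf_eq e.symm g⟩

/-- every finite group is isomorphic to a group in `Type` -/
theorem exists_type_zero (G : Type u) [Group G] [Finite G] :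
    ∃ (H : Type) (_ : Group H) (_ : Fintype H), Nonempty (H ≃* G) := by
  obtain ⟨n, ⟨e⟩⟩ := Finite.exists_equiv_fin G
  let i : Group (Fin n) := e.symm.group
  exact ⟨Fin n, i, inferInstance, ⟨e.symm.mulEquiv⟩⟩

end Cfsg.Agent.H413.SpecProd
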