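import Mathlib
import Cfsg.Agent.H390.PslSpec
import Cfsg.Agent.H413.SpecProd

/-!
# The group `V^k : (2 × L₂(q))`, `q = 3^n`, `n` odd, `V = N ⊗ N^(3)`

Over a field `K` of characteristic 3 with `q` elements, `q ≡ 3 (mod 8)`, the affine group of all maps
`X ↦ c • (g X φ(g)ᵀ) + v` of `(M₂(K))^k` (`c = ±1`, `g ∈ SL₂(K)`, `φ` the cubing map) has element orders exactly the
divisors of `6`, `9`, `q - 1`, `(q + 1) / 2`.
-/

set_option autoImplicit false

namespace Cfsg.Agent.H413.TwistedModule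

open Matrix
open Cfsg.Agent.H390.PslSpec
open Cfsg.Agent.H413.SpecProd

variable {K : Type*} [Field K] [CharP K 3]

/-- cubing the entries -/
noncomputable def fr (K : Type*) [Field K] [CharP K 3] : Matrix (Fin 2) (Fin 2) K →+* Matrix (Fin 2) (Fin 2) K :=
  (frobenius K 3).mapMatrix

theorem fr_apply (g : Matrix (Fin 2) (Fin 2) K) (i j : Fin 2) : fr K g i j = g i j ^ 3 := rfl

theorem det_fr (g : Matrix (Fin 2) (Fin 2) K) (hg : g.det = 1) : (fr K g).det = 1 := by
  have h := (frobenius K 3).map_det g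
  rw [hg, map_one] at h
  exact h.symm

theorem tr_fr (g : Matrix (Fin 2) (Fin 2) K) : tr (fr K g) = tr g ^ 3 := by
  change g 0 0 ^ 3 + g 1 1 ^ 3 = (g 0 0 + g 1 1) ^ 3
  exact (add_pow_char (R := K) (p := 3) (g 0 0) (g 1 1)).symm

/-- the space -/
abbrev V (K : Type*) (k : ℕ) : Type _ := Fin k → Matrix (Fin 2) (Fin 2) K

/-- the linear maps -/
noncomputable def A (k : ℕ) (c : K) (g : Matrix (Fin 2) (Fin 2) K) : AddMonoid.End (V K k) where
  toFun X i := c • (g * X i * (fr K g)ᵀ)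
  map_zero' := by funext i; simp
  map_add' X Y := by funext i; simp [mul_add, add_mul]

theorem A_apply (k : ℕ) (c : K) (g : Matrix (Fin 2) (Fin 2) K) (X : V K k) (i : Fin k) :
    A k c g X i = c • (g * X i * (fr K g)ᵀ) := rfl

omit [CharP K 3] in
theorem mul_app {k : ℕ} (S T : AddMonoid.End (V K k)) (X : V K k) : (S * T) X = S (T X) := rfl

theorem A_mul (k : ℕ) (c d : K) (g h : Matrix (Fin 2) (Fin 2) K) : A k c g * A k d h = A k (c * d) (g * h) := by
  ext1 X
  funext i
  change c • (g * (d • (h * X i * (fr K h)ᵀ)) * (fr K g)ᵀ) = (c * d) • (g * h * X i * (fr K (g * h))ᵀ)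
  rw [map_mul, transpose_mul, mul_smul, Matrix.mul_smul, Matrix.smul_mul]
  simp only [mul_assoc]

theorem A_one (k : ℕ) : A (K := K) k 1 1 = 1 := by
  ext1 X
  funext i
  change (1 : K) • (1 * X i * (fr K 1)ᵀ) = X i
  rw [map_one, transpose_one, one_smul, one_mul, mul_one]

theorem A_pow (k : ℕ) (c : K) (g : Matrix (Fin 2) (Fin 2) K) (n : ℕ) : A k c g ^ n = A k (c ^ n) (g ^ n) := by
  induction n with
  | zero => rw [pow_zero, pow_zero, pow_zero, A_one]
  | succ n ih => rw [pow_succ, ih, A_mul, pow_succ, pow_succ]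

theorem A_neg (k : ℕ) (c : K) (g : Matrix (Fin 2) (Fin 2) K) : A k c (-g) = A k c g := by
  ext1 X
  funext i
  change c • (-g * X i * (fr K (-g))ᵀ) = c • (g * X i * (fr K g)ᵀ)
  rw [map_neg, transpose_neg, neg_mul, neg_mul, mul_neg, neg_neg]

/-- `A` of a power -/
theorem A_pow_eq_one {k : ℕ} {c : K} {g : Matrix.SpecialLinearGroup (Fin 2) K} {n : ℕ} (hc : c ^ n = 1)
    (hg : (pr K g) ^ n = 1) : A k c (g : Matrix (Fin 2) (Fin 2) K) ^ n = 1 := by
  rw [A_pow, hc]
  rcases (pr_pow_eq_one_iff g n).1 hg with h | h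
  · rw [h, A_one]
  · rw [h, A_neg, A_one]

theorem three_eq_zero : (3 : K) = 0 := by
  have := CharP.cast_eq_zero K 3
  exact_mod_cast this

theorem three_nsmul_V {k : ℕ} (X : V K k) : 3 • X = 0 := by
  funext i
  ext a b
  change 3 • (X i a b) = 0
  rw [nsmul_eq_mul]
  have : ((3 : ℕ) : K) = 0 := CharP.cast_eq_zero K 3
  rw [this, zero_mul]

/-- if `1` is an eigenvalue of `A` then the trace is special -/
theorem trace_special {c : K} (hc : c * c = 1) (g : Matrix.SpecialLinearGroup (Fin 2) K)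
    {X : Matrix (Fin 2) (Fin 2) K} (hX : X ≠ 0)
    (h : c • ((g : Matrix (Fin 2) (Fin 2) K) * X * (fr K (g : Matrix (Fin 2) (Fin 2) K))ᵀ) = X) :
    tr (g : Matrix (Fin 2) (Fin 2) K) = 0 ∨ tr (g : Matrix (Fin 2) (Fin 2) K) ^ 2 = c := by
  set G : Matrix (Fin 2) (Fin 2) K := (g : Matrix (Fin 2) (Fin 2) K) with hG
  set τ := tr G with hτ
  set F := (fr K G)ᵀ with hF
  have hdF : F.det = 1 := by rw [hF, det_transpose, det_fr _ g.2]
  have htF : tr F = τ ^ 3 := by
    rw [hF, hτ, ← tr_fr]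
    rfl
  have c1 : G * G = τ • G - 1 := cayley G g.2
  have c2 : F * F = (τ ^ 3) • F - 1 := by rw [← htF]; exact cayley F hdF
  -- the inverse of `F`
  have hinv : F * ((τ ^ 3) • 1 - F) = 1 := by
    rw [mul_sub, c2, Matrix.mul_smul, mul_one]
    abel
  -- `G X F = c X`
  have e1 : G * X * F = c • X := by
    have h1 := congrArg (fun Y => c • Y) h
    simp only [smul_smul, hc, one_smul] at h1
    exact h1
  have e2 : G * X = c • (X * ((τ ^ 3) • 1 - F)) := by
    calc G * X = G * X * (F * ((τ ^ 3) • 1 - F)) := by rw [hinv, mul_one]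
      _ = (G * X * F) * ((τ ^ 3) • 1 - F) := by rw [← mul_assoc]
      _ = _ := by rw [e1, Matrix.smul_mul]
  -- `B = F⁻¹` satisfies the same equation
  set B := (τ ^ 3) • (1 : Matrix (Fin 2) (Fin 2) K) - F with hB
  have c3 : B * B = (τ ^ 3) • B - 1 := by
    rw [hB, sub_mul, mul_sub, mul_sub, c2]
    simp only [Matrix.smul_mul, Matrix.mul_smul, one_mul, mul_one, smul_sub, smul_smul]
    abel
  have e3 : G * (G * X) = X * (B * B) := by
    rw [e2, Matrix.mul_smul, ← mul_assoc, e2, Matrix.smul_mul, smul_smul, hc, one_smul, mul_assoc]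
  have e4 : τ • (G * X) = (τ ^ 3) • (X * B) := by
    rw [← mul_assoc, c1, sub_mul, one_mul, Matrix.smul_mul, c3, mul_sub, mul_one, Matrix.mul_smul] at e3
    have := sub_left_injective e3
    exact this
  rw [e2, smul_smul] at e4
  have e5 : (τ * c - τ ^ 3) • (X * B) = 0 := by rw [sub_smul, e4, sub_self]
  have e6 : (τ * c - τ ^ 3) • X = 0 := by
    have h1 : F * B = 1 := hinv
    have h2 : B * F = 1 := mul_eq_one_comm.1 h1
    calc (τ * c - τ ^ 3) • X = (τ * c - τ ^ 3) • (X * (B * F)) := by rw [h2, mul_one]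
      _ = ((τ * c - τ ^ 3) • (X * B)) * F := by rw [Matrix.smul_mul, mul_assoc]
      _ = 0 := by rw [e5, zero_mul]
  rcases smul_eq_zero.1 e6 with h0 | h0
  · have h7 : τ * (c - τ ^ 2) = 0 := by linear_combination h0
    rcases mul_eq_zero.1 h7 with h8 | h8
    · exact Or.inl h8
    · exact Or.inr (by linear_combination -h8)
  · exact absurd h0 hX

theorem A_SL_mul (k : ℕ) (c d : K) (g h : Matrix.SpecialLinearGroup (Fin 2) K) :
    A k (c * d) ((g * h : Matrix.SpecialLinearGroup (Fin 2) K) : Matrix (Fin 2) (Fin 2) K) =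
      A k c (g : Matrix (Fin 2) (Fin 2) K) * A k d (h : Matrix (Fin 2) (Fin 2) K) := by
  rw [A_mul]
  rfl

theorem A_SL_one (k : ℕ) :
    A k (1 : K) ((1 : Matrix.SpecialLinearGroup (Fin 2) K) : Matrix (Fin 2) (Fin 2) K) = 1 := A_one k

theorem A_SL_inv (k : ℕ) {c : K} (hc : c * c = 1) (g : Matrix.SpecialLinearGroup (Fin 2) K) (X : V K k) :
    A k c (g : Matrix (Fin 2) (Fin 2) K)
      (A k c ((g⁻¹ : Matrix.SpecialLinearGroup (Fin 2) K) : Matrix (Fin 2) (Fin 2) K) X) = X := by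
  rw [← mul_app, ← A_SL_mul, hc, mul_inv_cancel, A_SL_one]
  rfl

/-- the affine group -/
def Aff (K : Type*) [Field K] [CharP K 3] (k : ℕ) : Subgroup (Equiv.Perm (V K k)) where
  carrier := {f | ∃ (c : K) (g : Matrix.SpecialLinearGroup (Fin 2) K) (v : V K k), c * c = 1 ∧
    ∀ X, f X = A k c (g : Matrix (Fin 2) (Fin 2) K) X + v}
  mul_mem' := by
    rintro f f' ⟨c, g, v, hc, h⟩ ⟨c', g', v', hc', h'⟩
    refine ⟨c * c', g * g', A k c (g : Matrix (Fin 2) (Fin 2) K) v' + v, ?_, ?_⟩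
    · linear_combination (c' * c') * hc + hc'
    · intro X
      have e := A_SL_mul k c c' g g'
      rw [e, mul_app, Equiv.Perm.mul_apply, h, h', map_add, add_assoc]
  one_mem' := by
    refine ⟨1, 1, 0, one_mul 1, fun X => ?_⟩
    have e := A_SL_one (K := K) k
    rw [e, add_zero]
    rfl
  inv_mem' := by
    rintro f ⟨c, g, v, hc, h⟩
    refine ⟨c, g⁻¹, -A k c ((g⁻¹ : Matrix.SpecialLinearGroup (Fin 2) K) : Matrix (Fin 2) (Fin 2) K) v, hc, fun X => ?_⟩
    have e := A_SL_inv k hc g (X + -v)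
    rw [← map_neg, ← map_add, Equiv.Perm.inv_eq_iff_eq, h]
    refine Eq.trans ?_ (congrArg (fun Y => Y + v) e).symm
    abel

omit [CharP K 3] in
theorem add_app {k : ℕ} (S T : AddMonoid.End (V K k)) (X : V K k) : (S + T) X = S X + T X := rfl

omit [CharP K 3] in
theorem one_app {k : ℕ} (X : V K k) : (1 : AddMonoid.End (V K k)) X = X := rfl

omit [CharP K 3] in
theorem iter {k : ℕ} {f : Equiv.Perm (V K k)} {T : AddMonoid.End (V K k)} {v : V K k} (h : ∀ X, f X = T X + v)
    (n : ℕ) (X : V K k) : (f ^ n) X = (T ^ n) X + (∑ i ∈ Finset.range n, T ^ i) v := by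
  induction n generalizing X with
  | zero => simp
  | succ n ih =>
    have h1 : (∑ i ∈ Finset.range (n + 1), T ^ i) = T * (∑ i ∈ Finset.range n, T ^ i) + 1 := by
      rw [Finset.sum_range_succ', pow_zero, Finset.mul_sum]
      simp only [pow_succ']
    rw [pow_succ', Equiv.Perm.mul_apply, ih, h, map_add, ← mul_app, ← pow_succ', h1, add_app, mul_app, one_app,
      add_assoc]

omit [CharP K 3] in
/-- fixed point free -/
theorem pow_eq_one_of_inj {k : ℕ} {f : Equiv.Perm (V K k)} {T : AddMonoid.End (V K k)} {v : V K k}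
    (h : ∀ X, f X = T X + v) {n : ℕ} (hn : T ^ n = 1) (hT : ∀ X, T X = X → X = 0) : f ^ n = 1 := by
  ext1 X
  rw [iter h, hn]
  have h1 : (T - 1) * (∑ i ∈ Finset.range n, T ^ i) = 0 := by rw [mul_geom_sum, hn, sub_self]
  have h2 : (∑ i ∈ Finset.range n, T ^ i) v = 0 := by
    apply hT
    have h3 := congrArg (fun S : AddMonoid.End (V K k) => S v) h1
    change T ((∑ i ∈ Finset.range n, T ^ i) v) - (∑ i ∈ Finset.range n, T ^ i) v = 0 at h3
    exact sub_eq_zero.1 h3
  rw [h2, add_zero]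
  rfl

/-- characteristic three -/
theorem pow_three_mul {k : ℕ} {f : Equiv.Perm (V K k)} {T : AddMonoid.End (V K k)} {v : V K k}
    (h : ∀ X, f X = T X + v) {n : ℕ} (hn : T ^ n = 1) : f ^ (n * 3) = 1 := by
  rw [pow_mul]
  have h1 : ∀ X, (f ^ n) X = (1 : AddMonoid.End (V K k)) X + (∑ i ∈ Finset.range n, T ^ i) v := by
    intro X
    rw [iter h, hn]
  ext1 X
  rw [iter h1]
  simp only [one_pow, Finset.sum_const, Finset.card_range]
  change X + 3 • ((∑ i ∈ Finset.range n, T ^ i) v) = X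
  rw [three_nsmul_V, add_zero]


/-! ### The element orders -/

section orders

variable [Fintype K]

omit [Fintype K] in
theorem A_fix_inj {k : ℕ} {c : K} (hc : c * c = 1) (g : Matrix.SpecialLinearGroup (Fin 2) K)
    (h0 : tr (g : Matrix (Fin 2) (Fin 2) K) ≠ 0) (h1 : tr (g : Matrix (Fin 2) (Fin 2) K) ^ 2 ≠ c) (X : V K k)
    (hX : A k c (g : Matrix (Fin 2) (Fin 2) K) X = X) : X = 0 := by
  funext i
  by_contra hne
  rcases trace_special hc g hne (congrFun hX i) with h | h
  · exact h0 h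
  · exact h1 h

omit [CharP K 3] in
theorem neg_one_not_square (hq : Fintype.card K % 4 = 3) (x : K) : x ^ 2 ≠ -1 := by
  intro h
  have h1 := FiniteField.isSquare_neg_one_iff (F := K)
  exact (h1.1 ⟨x, by rw [← h, pow_two]⟩) hq

/-- every element of the affine group is killed by `6`, `9`, `q - 1` or `(q + 1) / 2` -/
theorem orders {k : ℕ} (hq : Fintype.card K % 8 = 3) (f : Equiv.Perm (V K k)) (hf : f ∈ Aff K k) :
    f ^ 6 = 1 ∨ f ^ 9 = 1 ∨ f ^ (Fintype.card K - 1) = 1 ∨ f ^ ((Fintype.card K + 1) / 2) = 1 := by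
  obtain ⟨c, g, v, hc, h⟩ := hf
  have hdd : dd (Fintype.card K) = 2 := dd_odd (Nat.odd_iff.2 (by omega))
  by_cases h0 : tr (g : Matrix (Fin 2) (Fin 2) K) = 0
  · -- `g² = -1`
    left
    have hg : (g : Matrix (Fin 2) (Fin 2) K) ^ 2 = -1 := by
      rw [pow_two, cayley _ g.2, h0, zero_smul, zero_sub]
    have hA : A k c (g : Matrix (Fin 2) (Fin 2) K) ^ 2 = 1 := by
      rw [A_pow, hg, A_neg, pow_two, hc, A_one]
    exact pow_three_mul h hA
  by_cases h1 : tr (g : Matrix (Fin 2) (Fin 2) K) ^ 2 = c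
  · right; left
    have hc1 : c = 1 := by
      rcases mul_self_eq_one_iff.1 hc with h2 | h2
      · exact h2
      · exact absurd (h1.trans h2) (neg_one_not_square (by omega) _)
    have hg : (pr K g) ^ 3 = 1 := by
      rw [pr_pow_eq_one_iff]
      have h3 : (g : Matrix (Fin 2) (Fin 2) K) ^ 3 = -(tr (g : Matrix (Fin 2) (Fin 2) K) • 1) := by
        rw [pow_succ, pow_two, cayley _ g.2, sub_mul, one_mul, Matrix.smul_mul, cayley _ g.2, smul_sub, smul_smul,
          ← pow_two, h1, hc1, one_smul]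
        abel
      have hh : tr (g : Matrix (Fin 2) (Fin 2) K) * tr (g : Matrix (Fin 2) (Fin 2) K) = 1 := by
        rw [← pow_two, h1, hc1]
      rcases mul_self_eq_one_iff.1 hh with h4 | h4
      · right
        exact h3.trans (by rw [h4, one_smul])
      · left
        exact h3.trans (by rw [h4, neg_smul, one_smul, neg_neg])
    have hA : A k c (g : Matrix (Fin 2) (Fin 2) K) ^ 3 = 1 := A_pow_eq_one (by rw [hc1, one_pow]) hg
    exact pow_three_mul h hA
  · have hinj := A_fix_inj (k := k) hc g h0 h1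
    have hc2 : c ^ 2 = 1 := by rw [pow_two, hc]
    rcases order_dvd (p := 3) g with h2 | h2 | h2
    · left
      have h3 : (pr K g) ^ 6 = 1 := orderOf_dvd_iff_pow_eq_one.1 (h2.trans (by norm_num))
      exact pow_eq_one_of_inj h (A_pow_eq_one (by rw [show 6 = 2 * 3 from rfl, pow_mul, hc2, one_pow]) h3) hinj
    · right; right; left
      rw [hdd] at h2
      have h3 : (pr K g) ^ (Fintype.card K - 1) = 1 := by
        refine orderOf_dvd_iff_pow_eq_one.1 (h2.trans ⟨2, ?_⟩)
        omega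
      refine pow_eq_one_of_inj h (A_pow_eq_one ?_ h3) hinj
      rw [show Fintype.card K - 1 = 2 * ((Fintype.card K - 1) / 2) by omega, pow_mul, hc2, one_pow]
    · right; right; right
      rw [hdd] at h2
      have h3 : (pr K g) ^ ((Fintype.card K + 1) / 2) = 1 := orderOf_dvd_iff_pow_eq_one.1 h2
      refine pow_eq_one_of_inj h (A_pow_eq_one ?_ h3) hinj
      rw [show (Fintype.card K + 1) / 2 = 2 * ((Fintype.card K + 1) / 4) by omega, pow_mul, hc2, one_pow]

/-- the element of `Aff` with given `c` and `g` and no translation -/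
noncomputable def lin (k : ℕ) {c : K} (hc : c * c = 1) (g : Matrix.SpecialLinearGroup (Fin 2) K) :
    Equiv.Perm (V K k) where
  toFun X := A k c (g : Matrix (Fin 2) (Fin 2) K) X
  invFun X := A k c ((g⁻¹ : Matrix.SpecialLinearGroup (Fin 2) K) : Matrix (Fin 2) (Fin 2) K) X
  left_inv X := by
    have h := A_SL_inv k hc g⁻¹ X
    rw [inv_inv] at h
    exact h
  right_inv X := A_SL_inv k hc g X

omit [Fintype K] in
theorem lin_mem (k : ℕ) {c : K} (hc : c * c = 1) (g : Matrix.SpecialLinearGroup (Fin 2) K) :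
    lin k hc g ∈ Aff K k := ⟨c, g, 0, hc, fun X => by rw [add_zero]; rfl⟩

omit [Fintype K] in
theorem lin_pow (k : ℕ) {c : K} (hc : c * c = 1) (g : Matrix.SpecialLinearGroup (Fin 2) K) (n : ℕ) (X : V K k) :
    (lin k hc g ^ n) X = A k (c ^ n) ((g : Matrix (Fin 2) (Fin 2) K) ^ n) X := by
  rw [← A_pow, iter (v := 0) (T := A k c (g : Matrix (Fin 2) (Fin 2) K)) (fun X => by rw [add_zero]; rfl), map_zero,
    add_zero]

omit [Fintype K] in
/-- the kernel of the linear action -/
theorem A_eq_one {k : ℕ} (hk : 0 < k) {c : K} (hc : c * c = 1) (g : Matrix.SpecialLinearGroup (Fin 2) K)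
    (h : ∀ X, A k c (g : Matrix (Fin 2) (Fin 2) K) X = X) : c = 1 ∧ pr K g = 1 := by
  set G : Matrix (Fin 2) (Fin 2) K := (g : Matrix (Fin 2) (Fin 2) K) with hG
  set F := (fr K G)ᵀ with hF
  have h1 : ∀ X : Matrix (Fin 2) (Fin 2) K, c • (G * X * F) = X :=
    fun X => congrFun (h fun _ => X) ⟨0, hk⟩
  have h2 : (c • G) * F = 1 := by
    have := h1 1
    rw [mul_one] at this
    rw [Matrix.smul_mul]
    exact this
  have h3 : F * (c • G) = 1 := mul_eq_one_comm.1 h2
  have h4 : ∀ X : Matrix (Fin 2) (Fin 2) K, G * X = X * G := by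
    intro X
    have e := congrArg (fun Y => Y * (c • G)) (h1 X)
    simp only [Matrix.smul_mul] at e
    rw [mul_assoc (G * X), h3, mul_one, Matrix.mul_smul] at e
    have e2 := congrArg (fun Y => c • Y) e
    simp only [smul_smul, hc, one_smul] at e2
    exact e2
  have h5 : pr K g = 1 := by
    have h6 : g ∈ Subgroup.center (Matrix.SpecialLinearGroup (Fin 2) K) := by
      rw [Subgroup.mem_center_iff]
      intro x
      apply Subtype.ext
      exact (h4 _).symm
    exact (QuotientGroup.eq_one_iff g).2 h6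
  refine ⟨?_, h5⟩
  have h6 : G * F = 1 := by
    rcases (pr_eq_one_iff g).1 h5 with h7 | h7
    · rw [hF, show G = 1 from h7, map_one, transpose_one, mul_one]
    · rw [hF, show G = -1 from h7, map_neg, map_one, transpose_neg, transpose_one, neg_mul_neg, mul_one]
  rw [Matrix.smul_mul, h6] at h2
  have := congrFun (congrFun h2 0) 0
  simpa using this

omit [Fintype K] in
theorem lin_pow_eq_one {k : ℕ} (hk : 0 < k) {c : K} (hc : c * c = 1) (g : Matrix.SpecialLinearGroup (Fin 2) K)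
    {n : ℕ} (h : lin k hc g ^ n = 1) : c ^ n = 1 ∧ (pr K g) ^ n = 1 := by
  have hcn : c ^ n * c ^ n = 1 := by rw [← mul_pow, hc, one_pow]
  have h1 := A_eq_one hk hcn (g ^ n) (by
    intro X
    have h2 := lin_pow k hc g n X
    rw [h] at h2
    exact h2.symm)
  rw [map_pow] at h1
  exact h1

/-- an element of order divisible by `q - 1` -/
theorem exists_sub_one {k : ℕ} (hk : 0 < k) (hq : Fintype.card K % 8 = 3) (h4 : 4 ≤ Fintype.card K) :
    ∃ f : Aff K k, Fintype.card K - 1 ∣ orderOf f := by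
  have hdd : dd (Fintype.card K) = 2 := dd_odd (Nat.odd_iff.2 (by omega))
  obtain ⟨x, hx⟩ := exists_sub (F := K) h4
  obtain ⟨g, rfl⟩ := pr_surjective (F := K) x
  rw [hdd] at hx
  have hc : (-1 : K) * (-1) = 1 := by ring
  refine ⟨⟨lin k hc g, lin_mem k hc g⟩, ?_⟩
  rw [Subgroup.orderOf_mk]
  obtain ⟨h1, h2⟩ := lin_pow_eq_one hk hc g (pow_orderOf_eq_one (lin k hc g))
  set n := orderOf (lin k hc g)
  have h3 : Even n := by
    by_contra ho
    rw [(Nat.not_even_iff_odd.1 ho).neg_one_pow] at h1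
    have h5 := three_eq_zero (K := K)
    have h6 : (1 : K) = 0 := by linear_combination h5 + h1
    exact one_ne_zero h6
  have h4 : (Fintype.card K - 1) / 2 ∣ n := by
    rw [← hx]
    exact orderOf_dvd_of_pow_eq_one h2
  have h5 : Nat.Coprime 2 ((Fintype.card K - 1) / 2) := by
    rw [Nat.coprime_two_left, Nat.odd_iff]
    omega
  have h6 := Nat.Coprime.mul_dvd_of_dvd_of_dvd h5 (even_iff_two_dvd.1 h3) h4
  rwa [show 2 * ((Fintype.card K - 1) / 2) = Fintype.card K - 1 by omega] at h6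

/-- an element of order divisible by `(q + 1) / 2` -/
theorem exists_add_one {k : ℕ} (hk : 0 < k) (hq : Fintype.card K % 8 = 3) (h4 : 4 ≤ Fintype.card K) :
    ∃ f : Aff K k, (Fintype.card K + 1) / 2 ∣ orderOf f := by
  have hdd : dd (Fintype.card K) = 2 := dd_odd (Nat.odd_iff.2 (by omega))
  obtain ⟨x, hx⟩ := exists_add (F := K) h4
  obtain ⟨g, rfl⟩ := pr_surjective (F := K) x
  rw [hdd] at hx
  have hc : (1 : K) * 1 = 1 := by ring
  refine ⟨⟨lin k hc g, lin_mem k hc g⟩, ?_⟩
  rw [Subgroup.orderOf_mk]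
  obtain ⟨h1, h2⟩ := lin_pow_eq_one hk hc g (pow_orderOf_eq_one (lin k hc g))
  rw [← hx]
  exact orderOf_dvd_of_pow_eq_one h2

omit [Fintype K] in
theorem orderOf_pr_trv : orderOf (pr K (trv K)) = 3 := by
  have : Fact (Nat.Prime 3) := ⟨Nat.prime_three⟩
  apply orderOf_eq_prime
  · rw [pr_pow_eq_one_iff]
    left
    have h3 := three_eq_zero (K := K)
    change (!![1, 1; 0, 1] : Matrix (Fin 2) (Fin 2) K) ^ 3 = 1
    ext i j
    fin_cases i <;> fin_cases j <;> simp [pow_succ, Matrix.mul_apply, Fin.sum_univ_two]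
    linear_combination h3
  · intro h
    rcases (pr_eq_one_iff _).1 h with h1 | h1
    · have := congrFun (congrFun h1 0) 1
      change (1 : K) = 0 at this
      exact one_ne_zero this
    · have := congrFun (congrFun h1 0) 1
      change (1 : K) = -0 at this
      rw [neg_zero] at this
      exact one_ne_zero this

omit [Fintype K] in
/-- an element of order divisible by `6` -/
theorem exists_six {k : ℕ} (hk : 0 < k) : ∃ f : Aff K k, 6 ∣ orderOf f := by
  have hc : (-1 : K) * (-1) = 1 := by ring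
  refine ⟨⟨lin k hc (trv K), lin_mem k hc _⟩, ?_⟩
  rw [Subgroup.orderOf_mk]
  obtain ⟨h1, h2⟩ := lin_pow_eq_one hk hc (trv K) (pow_orderOf_eq_one (lin k hc (trv K)))
  set n := orderOf (lin k hc (trv K))
  have h3 : Even n := by
    by_contra ho
    rw [(Nat.not_even_iff_odd.1 ho).neg_one_pow] at h1
    have h5 := three_eq_zero (K := K)
    have h6 : (1 : K) = 0 := by linear_combination h5 + h1
    exact one_ne_zero h6
  have h4 : 3 ∣ n := by
    rw [← orderOf_pr_trv (K := K)]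
    exact orderOf_dvd_of_pow_eq_one h2
  exact Nat.Coprime.mul_dvd_of_dvd_of_dvd (m := 2) (n := 3) (by norm_num) (even_iff_two_dvd.1 h3) h4

omit [Fintype K] in
/-- an element of order `9` -/
theorem exists_nine {k : ℕ} (hk : 0 < k) : ∃ f : Aff K k, orderOf f = 9 := by
  have hc : (1 : K) * 1 = 1 := by ring
  let v : V K k := fun _ => !![0, 0; 0, 1]
  let f : Equiv.Perm (V K k) := Equiv.addRight v * lin k hc (trv K)
  have hf : ∀ X, f X = A k 1 ((trv K : Matrix.SpecialLinearGroup (Fin 2) K) : Matrix (Fin 2) (Fin 2) K) X + v :=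
    fun X => rfl
  have hm : f ∈ Aff K k := ⟨1, trv K, v, hc, hf⟩
  refine ⟨⟨f, hm⟩, ?_⟩
  rw [Subgroup.orderOf_mk]
  have hA : A k 1 ((trv K : Matrix.SpecialLinearGroup (Fin 2) K) : Matrix (Fin 2) (Fin 2) K) ^ 3 = 1 :=
    A_pow_eq_one (one_pow 3) (by rw [← orderOf_pr_trv (K := K)]; exact pow_orderOf_eq_one _)
  have h9 : f ^ (3 * 3) = 1 := pow_three_mul hf hA
  have h3 : f ^ 3 ≠ 1 := by
    intro h
    have h1 : (f ^ 3) 0 = f (f (f 0)) := rfl
    have h0 : f 0 = v := by
      refine (hf 0).trans ?_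
      have e : A k 1 ((trv K : Matrix.SpecialLinearGroup (Fin 2) K) : Matrix (Fin 2) (Fin 2) K) 0 = 0 := map_zero _
      rw [e, zero_add]
    rw [h, h0, hf v, hf] at h1
    have h2 := congrFun (congrFun (congrFun h1 ⟨0, hk⟩) 0) 0
    change (0 : K) = ((1 : K) • ((!![1, 1; 0, 1] : Matrix (Fin 2) (Fin 2) K) *
      ((1 : K) • ((!![1, 1; 0, 1] : Matrix (Fin 2) (Fin 2) K) * !![0, 0; 0, 1] *
        (fr K (!![1, 1; 0, 1] : Matrix (Fin 2) (Fin 2) K))ᵀ) + !![0, 0; 0, 1]) *
        (fr K (!![1, 1; 0, 1] : Matrix (Fin 2) (Fin 2) K))ᵀ) + !![0, 0; 0, 1] : Matrix (Fin 2) (Fin 2) K) 0 0 at h2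
    have e1 : fr K (!![1, 1; 0, 1] : Matrix (Fin 2) (Fin 2) K) = !![1, 1; 0, 1] := by
      ext i j
      fin_cases i <;> fin_cases j <;> simp [fr_apply]
    have e2 : (!![1, 1; 0, 1] : Matrix (Fin 2) (Fin 2) K)ᵀ = !![1, 0; 1, 1] := by
      ext i j
      fin_cases i <;> fin_cases j <;> rfl
    have e3 : (1 : K) • ((!![1, 1; 0, 1] : Matrix (Fin 2) (Fin 2) K) * !![0, 0; 0, 1] * !![1, 0; 1, 1]) +
        !![0, 0; 0, 1] = !![1, 1; 1, 2] := by
      rw [one_smul]
      ext i j
      fin_cases i <;> fin_cases j <;> simp [Matrix.mul_apply, Fin.sum_univ_two] <;> norm_num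
    have e4 : ((1 : K) • ((!![1, 1; 0, 1] : Matrix (Fin 2) (Fin 2) K) * !![1, 1; 1, 2] * !![1, 0; 1, 1]) +
        !![0, 0; 0, 1] : Matrix (Fin 2) (Fin 2) K) 0 0 = 5 := by
      rw [one_smul]
      simp [Matrix.mul_apply, Fin.sum_univ_two]
      norm_num
    rw [e1, e2, e3, e4] at h2
    have h5 := three_eq_zero (K := K)
    have h6 : (1 : K) = 0 := by linear_combination 2 * h5 + h2
    exact one_ne_zero h6
  have : Fact (Nat.Prime 3) := ⟨Nat.prime_three⟩
  exact orderOf_eq_prime_pow (p := 3) (n := 1) (by rwa [pow_one]) h9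

/-- the translations give a lower bound for the order -/
theorem card_Aff (k : ℕ) : k < Nat.card (Aff K k) := by
  have : Finite (V K k) := inferInstance
  have hinj : Function.Injective (fun v : V K k => (⟨Equiv.addRight v, 1, 1, v, one_mul 1, fun X => by
      have e := A_SL_one (K := K) k
      rw [e]
      rfl⟩ : Aff K k)) := by
    intro v w h
    have h1 := congrArg (fun f : Aff K k => (f : Equiv.Perm (V K k)) 0) h
    change 0 + v = 0 + w at h1
    simpa using h1
  have h1 := Nat.card_le_card_of_injective _ hinj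
  have h2 : 2 ≤ Nat.card (Matrix (Fin 2) (Fin 2) K) := by
    have : 1 < Nat.card (Matrix (Fin 2) (Fin 2) K) := Finite.one_lt_card
    exact this
  have h3 : Nat.card (V K k) = Nat.card (Matrix (Fin 2) (Fin 2) K) ^ k := by
    rw [Nat.card_fun, Nat.card_fin]
  rw [h3] at h1
  exact lt_of_lt_of_le (Nat.lt_pow_self h2) h1

instance finAff (k : ℕ) : Finite (Aff K k) := by
  have : Finite (V K k) := inferInstance
  have : Finite (Equiv.Perm (V K k)) := inferInstance
  infer_instance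

/-- **The element orders of `V^k : (2 × L₂(q))`.** -/
theorem isOrd_iff {k : ℕ} (hk : 0 < k) (hq : Fintype.card K % 8 = 3) (h4 : 4 ≤ Fintype.card K) (d : ℕ) :
    IsOrd (Aff K k) d ↔ d ∣ 6 ∨ d ∣ 9 ∨ d ∣ Fintype.card K - 1 ∨ d ∣ (Fintype.card K + 1) / 2 := by
  constructor
  · rintro ⟨f, rfl⟩
    rcases orders hq (f : Equiv.Perm (V K k)) f.2 with h | h | h | h
    · left; exact orderOf_dvd_of_pow_eq_one (Subtype.ext h)
    · right; left; exact orderOf_dvd_of_pow_eq_one (Subtype.ext h)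
    · right; right; left; exact orderOf_dvd_of_pow_eq_one (Subtype.ext h)
    · right; right; right; exact orderOf_dvd_of_pow_eq_one (Subtype.ext h)
  · have hpos : ∀ f : Aff K k, orderOf f ≠ 0 := fun f => (orderOf_pos f).ne'
    rintro (h | h | h | h)
    · obtain ⟨f, hf⟩ := exists_six (K := K) hk
      exact IsOrd.dvd ⟨f, rfl⟩ (hpos f) (h.trans hf)
    · obtain ⟨f, hf⟩ := exists_nine (K := K) hk
      exact IsOrd.dvd ⟨f, hf⟩ (by norm_num) h
    · obtain ⟨f, hf⟩ := exists_sub_one (K := K) hk hq h4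
      exact IsOrd.dvd ⟨f, rfl⟩ (hpos f) (h.trans hf)
    · obtain ⟨f, hf⟩ := exists_add_one (K := K) hk hq h4
      exact IsOrd.dvd ⟨f, rfl⟩ (hpos f) (h.trans hf)

end orders

end Cfsg.Agent.H413.TwistedModule
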